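import Cfsg.Agent.H807.S45.Fpf

/-!
# S4543 T7a (`|Q| = 32`, `C_Q(a) = ⟨z⟩`)
-/

set_option autoImplicit false
set_option linter.unusedSectionVars false

namespace Cfsg.Agent.H807.S45

open Subgroup Cfsg.Agent.H617.Two

section gen

variable {D : Type*} [Group D] [Finite D]

theorem three_gen_aux {Q : Subgroup D} (hQ : Q.index = 2) {α β : D} (hα : α ∉ Q) (hβ : β ∈ Q)
    (hgen : closure ({α, β} : Set D) = ⊤) : closure ({β, α * β * α⁻¹, α * α} : Set D) = Q := by
  set T := closure ({β, α * β * α⁻¹, α * α} : Set D) with hT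
  have hβT : β ∈ T := Subgroup.subset_closure (by simp)
  have hβ'T : α * β * α⁻¹ ∈ T := Subgroup.subset_closure (by simp)
  have hααT : α * α ∈ T := Subgroup.subset_closure (by simp)
  have hTQ : T ≤ Q := by
    rw [hT, Subgroup.closure_le]
    rintro x (rfl | rfl | rfl)
    · exact hβ
    · exact (Subgroup.normal_of_index_eq_two hQ).conj_mem _ hβ _
    · exact (Subgroup.mul_mem_iff_of_index_two hQ).2 Iff.rfl
  -- `T` is normalized by `α`
  have hαT : ∀ x ∈ T, α * x * α⁻¹ ∈ T := by
    intro x hx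
    have h1 : T.map (MulAut.conj α).toMonoidHom ≤ T := by
      rw [hT, MonoidHom.map_closure, Subgroup.closure_le]
      rintro _ ⟨w, (rfl | rfl | rfl), rfl⟩
      · exact hβ'T
      · change α * (α * β * α⁻¹) * α⁻¹ ∈ T
        have : α * (α * β * α⁻¹) * α⁻¹ = (α * α) * β * (α * α)⁻¹ := by group
        rw [this]
        exact T.mul_mem (T.mul_mem hααT hβT) (T.inv_mem hααT)
      · change α * (α * α) * α⁻¹ ∈ T
        have : α * (α * α) * α⁻¹ = α * α := by group
        rw [this]; exact hααT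
    exact h1 ⟨x, hx, rfl⟩
  have hαT' := conj_closed hαT
  have key : ∀ x : D, x ∈ T ∨ α⁻¹ * x ∈ T := by
    intro x
    have hx : x ∈ closure ({α, β} : Set D) := by rw [hgen]; exact Subgroup.mem_top x
    induction hx using Subgroup.closure_induction with
    | mem x hx =>
      rcases hx with rfl | rfl
      · right; rw [inv_mul_cancel]; exact T.one_mem
      · left; exact hβT
    | one => left; exact T.one_mem
    | mul x w _ _ hx hw =>
      rcases hx with hx | hx <;> rcases hw with hw | hw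
      · left; exact T.mul_mem hx hw
      · right
        have e : α⁻¹ * (x * w) = (α⁻¹ * x * α) * (α⁻¹ * w) := by group
        rw [e]; exact T.mul_mem (hαT' x hx) hw
      · right
        have e : α⁻¹ * (x * w) = (α⁻¹ * x) * w := by group
        rw [e]; exact T.mul_mem hx hw
      · left
        have e : x * w = (α * α) * (α⁻¹ * (α⁻¹ * x) * α) * (α⁻¹ * w) := by group
        rw [e]; exact T.mul_mem (T.mul_mem hααT (hαT' _ hx)) hw
    | inv x _ hx =>
      rcases hx with hx | hx
      · left; exact T.inv_mem hx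
      · right
        have e : α⁻¹ * x⁻¹ = (α * α)⁻¹ * (α * (α⁻¹ * x)⁻¹ * α⁻¹) := by group
        rw [e]; exact T.mul_mem (T.inv_mem hααT) (hαT _ (T.inv_mem hx))
  refine le_antisymm hTQ fun x hx => ?_
  rcases key x with h1 | h1
  · exact h1
  · exfalso
    apply hα
    have h2 := Q.mul_mem hx (Q.inv_mem (hTQ h1))
    have e : x * (α⁻¹ * x)⁻¹ = α := by group
    rwa [e] at h2

/-- subgroups of index two of a 2-generated group are 3-generated -/
theorem three_gen {Q : Subgroup D} (hQ : Q.index = 2) (hgen : ∃ a b : D, closure ({a, b} : Set D) = ⊤) :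
    ∃ b1 b2 b3 : D, closure ({b1, b2, b3} : Set D) = Q := by
  obtain ⟨α, β, hg⟩ := hgen
  by_cases hα : α ∈ Q
  · by_cases hβ : β ∈ Q
    · exfalso
      have h1 : closure ({α, β} : Set D) ≤ Q := by
        rw [Subgroup.closure_le]
        rintro x (rfl | rfl)
        · exact hα
        · exact hβ
      rw [hg, top_le_iff] at h1
      rw [h1, Subgroup.index_top] at hQ
      omega
    · rw [Set.pair_comm] at hg
      exact ⟨_, _, _, three_gen_aux hQ hβ hα hg⟩
  · by_cases hβ : β ∈ Q
    · exact ⟨_, _, _, three_gen_aux hQ hα hβ hg⟩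
    · refine ⟨_, _, _, three_gen_aux hQ hα (β := α * β)
        ((Subgroup.mul_mem_iff_of_index_two hQ).2 ⟨fun h => absurd h hα, fun h => absurd h hβ⟩) ?_⟩
      rw [← top_le_iff, ← hg, Subgroup.closure_le]
      rintro x (rfl | rfl)
      · exact Subgroup.subset_closure (by simp)
      · have h1 : α ∈ closure ({α, α * x} : Set D) := Subgroup.subset_closure (by simp)
        have h2 : α * x ∈ closure ({α, α * x} : Set D) := Subgroup.subset_closure (by simp)
        have h3 := mul_mem (inv_mem h1) h2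
        rwa [inv_mul_cancel_left] at h3

/-- 3-generated groups of exponent two -/
theorem card_le_eight {B : Type*} [Group B] [Finite B] {b1 b2 b3 : B} (hg : closure ({b1, b2, b3} : Set B) = ⊤)
    (h2 : ∀ b : B, b * b = 1) : Nat.card B ≤ 8 := by
  classical
  letI : CommGroup B := { (inferInstance : Group B) with
    mul_comm := fun a b => by
      have hi : ∀ c : B, c⁻¹ = c := fun c => inv_eq_of_mul_eq_one_right (h2 c)
      rw [← hi (a * b), mul_inv_rev, hi, hi] }
  have h3 := card_dvd_exponent_pow_rank' B (n := 2) (fun g => by rw [pow_two]; exact h2 g)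
  have h4 : Group.rank B ≤ 3 := by
    have := Group.rank_le (S := ({b1, b2, b3} : Finset B)) (by
      rw [← hg]; simp)
    exact this.trans Finset.card_le_three
  calc Nat.card B ≤ 2 ^ Group.rank B := Nat.le_of_dvd (by positivity) h3
    _ ≤ 2 ^ 3 := Nat.pow_le_pow_right (by norm_num) h4

end gen

theorem two_mul_card_le {G : Type*} [Group G] [Finite G] {H K : Subgroup G} (hle : H ≤ K) (hne : H ≠ K) :
    2 * Nat.card H ≤ Nat.card K := by
  obtain ⟨k, hk⟩ := Subgroup.card_dvd_of_le hle
  have h1 : 0 < Nat.card H := Nat.card_pos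
  have h2 : 0 < Nat.card K := Nat.card_pos
  have h3 : k ≠ 0 := by rintro rfl; omega
  have h4 : k ≠ 1 := by
    rintro rfl
    exact hne (Subgroup.eq_of_le_of_card_ge hle (by omega))
  have h5 : 2 ≤ k := by omega
  rw [hk]
  nlinarith

/-- **S4543 T7a**: `|Q| = 32`, `C_Q(a) = ⟨z⟩`. -/
theorem T7a {D : Type*} [Group D] [Finite D] (hG : Good D) {Q : Subgroup D} {z y : D} {a : D → D}
    (h : Loc Q z a y) (hQ : Nat.card Q = 32) (hR : ∀ x ∈ Q, a x = x → x = 1 ∨ x = z) :
    Last Q z ∧ ∃ w ∈ center D, w ≠ 1 ∧ w ≠ z := by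
  have hzc := Subgroup.mem_center_iff.1 h.zc
  have hzQ : z ∈ Q := h.cent z (fun q _ => (hzc q).symm)
  have hzz : z * z = 1 := hG.centre z h.zc
  have hQi : Q.index = 2 := by
    have := Subgroup.card_mul_index Q
    rw [hQ, hG.card] at this
    omega
  let z' : Q := ⟨z, hzQ⟩
  have hz'1 : z' ≠ 1 := fun hc => h.z1 (congrArg Subtype.val hc)
  have hz'z' : z' * z' = 1 := Subtype.ext hzz
  have hz'c : ∀ x : Q, x * z' = z' * x := fun x => Subtype.ext (hzc x)
  let A : Q →* Q := MonoidHom.mk' (fun q => ⟨a q, h.map q q.2⟩) (fun q r => Subtype.ext (h.mul q q.2 r r.2))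
  have hAz : A z' = z' := Subtype.ext h.az
  let σ : Q →* Q := MonoidHom.mk' (fun q => ⟨y * q * y⁻¹, h.yN q q.2⟩) (fun q r => Subtype.ext (by
    change y * (q * r : D) * y⁻¹ = (y * q * y⁻¹) * (y * r * y⁻¹)
    group))
  have hσz : σ z' = z' := Subtype.ext (by
    change y * z * y⁻¹ = z
    rw [hzc y]; group)
  let Z : Subgroup Q := zpowers z'
  have hZ : ∀ x : Q, x ∈ Z ↔ x = 1 ∨ x = z' := by
    intro x
    constructor
    · intro hx
      obtain ⟨k, hk⟩ := Subgroup.mem_zpowers_iff.1 hx
      rw [← hk]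
      have hz2 : z' ^ (2 : ℤ) = 1 := by
        rw [show (2 : ℤ) = ((2 : ℕ) : ℤ) from rfl, zpow_natCast, pow_two, hz'z']
      rcases Int.even_or_odd' k with ⟨m, rfl | rfl⟩
      · left; rw [zpow_mul, hz2, one_zpow]
      · right; rw [zpow_add, zpow_mul, hz2, one_zpow, one_mul, zpow_one]
    · rintro (hx | hx)
      · rw [hx]; exact Z.one_mem
      · rw [hx]; exact Subgroup.mem_zpowers z'
  have hZc : Nat.card Z = 2 := by
    rw [Nat.card_zpowers]
    exact orderOf_eq_prime (p := 2) (by rw [pow_two, hz'z']) hz'1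
  haveI hZn : Z.Normal := ⟨fun n hn g => by
    rcases (hZ n).1 hn with hx | hx
    · rw [hx]; simp
    · rw [hx, hz'c g, mul_inv_cancel_right, hZ]; exact Or.inr rfl⟩
  have hBc : Nat.card (Q ⧸ Z) = 16 := by
    have := Subgroup.card_eq_card_quotient_mul_card_subgroup Z
    rw [hQ, hZc] at this
    omega
  let π : Q →* Q ⧸ Z := QuotientGroup.mk' Z
  have hπs : Function.Surjective π := QuotientGroup.mk'_surjective Z
  have hπ1 : ∀ x : Q, π x = 1 ↔ x = 1 ∨ x = z' := fun x => (QuotientGroup.eq_one_iff x).trans (hZ x)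
  have hπ : ∀ x w : Q, π x = π w → x = w ∨ x = z' * w := by
    intro x w hxw
    have h1 : π (x * w⁻¹) = 1 := by rw [map_mul, map_inv, hxw, mul_inv_cancel]
    rcases (hπ1 _).1 h1 with h2 | h2
    · left; exact mul_inv_eq_one.1 h2
    · right; rw [← h2]; group
  have hAle : Z ≤ Z.comap A := by
    intro x hx
    rw [Subgroup.mem_comap]
    rcases (hZ x).1 hx with h1 | h1
    · rw [h1, map_one]; exact Z.one_mem
    · rw [h1, hAz, hZ]; exact Or.inr rfl
  have hσle : Z ≤ Z.comap σ := by
    intro x hx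
    rw [Subgroup.mem_comap]
    rcases (hZ x).1 hx with h1 | h1
    · rw [h1, map_one]; exact Z.one_mem
    · rw [h1, hσz, hZ]; exact Or.inr rfl
  let f : Q ⧸ Z →* Q ⧸ Z := QuotientGroup.map Z Z A hAle
  let g : Q ⧸ Z →* Q ⧸ Z := QuotientGroup.map Z Z σ hσle
  have hf : ∀ x, f (π x) = π (A x) := fun x => rfl
  have hg : ∀ x, g (π x) = π (σ x) := fun x => rfl
  have h3 : ∀ b, f (f (f b)) = b := by
    intro b
    obtain ⟨x, rfl⟩ := hπs b
    rw [hf, hf, hf]
    congr 1
    exact Subtype.ext (h.cube x x.2)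
  have h1 : ∀ b, f b = b → b = 1 := by
    intro b hb
    obtain ⟨x, rfl⟩ := hπs b
    rw [hf] at hb
    rw [hπ1]
    have hAx : A x = x := by
      rcases hπ _ _ hb with h2 | h2
      · exact h2
      · exfalso
        have e1 : A (A (A x)) = z' * x := by
          rw [h2, map_mul, hAz, h2, map_mul, map_mul, hAz, h2]
          calc z' * (z' * (z' * x)) = (z' * z') * (z' * x) := by group
            _ = z' * x := by rw [hz'z', one_mul]
        have e2 : A (A (A x)) = x := Subtype.ext (h.cube x x.2)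
        rw [e2] at e1
        exact hz'1 (mul_eq_right.1 e1.symm)
    rcases hR x x.2 (congrArg Subtype.val hAx) with h2 | h2
    · left; exact Subtype.ext h2
    · right; exact Subtype.ext h2
  -- not elementary abelian
  have hx : ∃ b : Q ⧸ Z, b * b ≠ 1 := by
    by_contra hcon
    push Not at hcon
    obtain ⟨b1, b2, b3, hgen⟩ := three_gen hQi hG.gen
    have hb1 : b1 ∈ Q := by rw [← hgen]; exact Subgroup.subset_closure (by simp)
    have hb2 : b2 ∈ Q := by rw [← hgen]; exact Subgroup.subset_closure (by simp)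
    have hb3 : b3 ∈ Q := by rw [← hgen]; exact Subgroup.subset_closure (by simp)
    have hgen' : closure ({⟨b1, hb1⟩, ⟨b2, hb2⟩, ⟨b3, hb3⟩} : Set Q) = ⊤ := by
      apply Subgroup.map_injective Q.subtype_injective
      rw [MonoidHom.map_closure, ← MonoidHom.range_eq_map, Subgroup.range_subtype]
      refine Eq.trans ?_ hgen
      congr 1
      ext x
      simp only [Set.mem_image, Set.mem_insert_iff, Set.mem_singleton_iff]
      constructor
      · rintro ⟨w, (rfl | rfl | rfl), rfl⟩
        · exact Or.inl rfl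
        · exact Or.inr (Or.inl rfl)
        · exact Or.inr (Or.inr rfl)
      · rintro (rfl | rfl | rfl)
        · exact ⟨_, Or.inl rfl, rfl⟩
        · exact ⟨_, Or.inr (Or.inl rfl), rfl⟩
        · exact ⟨_, Or.inr (Or.inr rfl), rfl⟩
    have hgen'' : closure ({π ⟨b1, hb1⟩, π ⟨b2, hb2⟩, π ⟨b3, hb3⟩} : Set (Q ⧸ Z)) = ⊤ := by
      have h4 : (closure ({⟨b1, hb1⟩, ⟨b2, hb2⟩, ⟨b3, hb3⟩} : Set Q)).map π = ⊤ := by
        rw [hgen', ← MonoidHom.range_eq_map, MonoidHom.range_eq_top.2 hπs]
      rw [MonoidHom.map_closure, Set.image_insert_eq, Set.image_insert_eq, Set.image_singleton] at h4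
      exact h4
    have := card_le_eight hgen'' hcon
    omega
  have hcomm := fpf_comm h3 h1 hBc
  obtain ⟨hsq, hcK⟩ := fpf16 h3 h1 hBc hx
  have hn1 := norm1 h3 h1
  -- the action of `y`
  have hfg : ∀ b, f (g (f b)) = g b := by
    intro b
    obtain ⟨x, rfl⟩ := hπs b
    rw [hf, hg, hf, hg]
    congr 1
    exact Subtype.ext (h.inv x x.2)
  obtain ⟨b0, hb0⟩ : ∃ b : Q ⧸ Z, g (b * b) ≠ b * b := by
    by_contra hcon
    push Not at hcon
    obtain ⟨b, hb⟩ := hx
    apply hb
    have e1 : g (b * b) = b * b := hcon b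
    have e2 : g (f (b * b)) = f (b * b) := by
      rw [map_mul f]; exact hcon (f b)
    have e3 := hfg (b * b)
    rw [e2, e1] at e3
    have e4 : f (b * b) = b * b := by
      have := h3 (b * b)
      rwa [e3] at this
    exact h1 _ e4
  obtain ⟨x0, hx0⟩ := hπs b0
  -- facts in `Q`
  have hc1 : ∀ x w : Q, x * w = w * x ∨ x * w = z' * (w * x) := fun x w =>
    hπ _ _ (by rw [map_mul, map_mul, hcomm])
  have hsqc : ∀ x w : Q, x * x * w = w * (x * x) := by
    intro x w
    rcases hc1 x w with h4 | h4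
    · rw [mul_assoc, h4, ← mul_assoc, h4, mul_assoc]
    · calc x * x * w = x * (x * w) := by group
        _ = (x * z') * (w * x) := by rw [h4]; group
        _ = z' * (x * w) * x := by rw [hz'c x]; group
        _ = (z' * z') * (w * (x * x)) := by rw [h4]; group
        _ = w * (x * x) := by rw [hz'z', one_mul]
  have hFc : ∀ x : Q, π x * π x = 1 → ∀ w : Q, x * w = w * x := by
    intro x hx w
    obtain ⟨c, hc⟩ := (hsq _).1 hx
    obtain ⟨v, rfl⟩ := hπs c
    rw [← map_mul] at hc
    rcases hπ _ _ hc with h4 | h4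
    · rw [h4]; exact hsqc v w
    · rw [h4, mul_assoc, hsqc v w, ← mul_assoc, ← hz'c w, mul_assoc]
  have hD : ∀ w : D, (∀ q ∈ Q, w * q = q * w) → w * y = y * w → w ∈ center D := by
    intro w hw hwy
    rw [Subgroup.mem_center_iff]
    intro d
    by_cases hd : d ∈ Q
    · exact (hw d hd).symm
    · have h4 : y⁻¹ * d ∈ Q := by
        refine (Subgroup.mul_mem_iff_of_index_two hQi).2 ⟨fun hc => absurd ?_ h.yQ, fun hc => absurd hc hd⟩
        simpa using Q.inv_mem hc
      have h5 := hw _ h4
      calc d * w = y * ((y⁻¹ * d) * w) := by group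
        _ = (y * w) * (y⁻¹ * d) := by rw [← h5]; group
        _ = w * d := by rw [← hwy]; group
  have hb4 : ∀ b : Q ⧸ Z, b * b * (b * b) = 1 := fun b => (hsq (b * b)).2 ⟨b, rfl⟩
  have hyy : ∀ x : Q, y * (y * x * y⁻¹) * y⁻¹ = (y * y) * x * (y * y)⁻¹ := fun x => by group
  -- `Q` is not abelian
  have hna : ∃ x w : Q, x * w ≠ w * x := by
    by_contra hcon
    push Not at hcon
    have hcon' : ∀ x ∈ Q, ∀ w ∈ Q, x * w = w * x := fun x hx w hw =>
      congrArg Subtype.val (hcon ⟨x, hx⟩ ⟨w, hw⟩)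
    have hw : (x0 : D) * (σ x0 : D) ∈ center D := by
      refine hD _ (fun q hq => hcon' _ (x0 * σ x0).2 _ hq) ?_
      have e1 : y * ((x0 : D) * (σ x0 : D)) * y⁻¹ = (x0 : D) * (σ x0 : D) := by
        have e2 : y * ((x0 : D) * (σ x0 : D)) * y⁻¹ = (σ x0 : D) * ((y * y) * x0 * (y * y)⁻¹) := by
          change y * ((x0 : D) * (y * x0 * y⁻¹)) * y⁻¹ = (y * x0 * y⁻¹) * ((y * y) * x0 * (y * y)⁻¹)
          group
        rw [e2, hcon' _ h.yy _ x0.2, mul_inv_cancel_right]
        exact hcon' _ (σ x0).2 _ x0.2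
      calc (x0 : D) * (σ x0 : D) * y = (y * ((x0 : D) * (σ x0 : D)) * y⁻¹) * y := by rw [e1]
        _ = y * ((x0 : D) * (σ x0 : D)) := by group
    have hww := hG.centre _ hw
    have hww' : (x0 * σ x0) * (x0 * σ x0) = 1 := Subtype.ext hww
    have h4 := congrArg π hww'
    rw [map_mul, map_mul, ← hg, hx0, map_one] at h4
    apply hb0
    have h5 : (b0 * b0) * g (b0 * b0) = 1 := by
      rw [← h4, map_mul]
      calc b0 * b0 * (g b0 * g b0) = b0 * (b0 * g b0) * g b0 := by group
        _ = b0 * (g b0 * b0) * g b0 := by rw [hcomm b0 (g b0)]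
        _ = _ := by group
    exact mul_left_cancel (h5.trans (hb4 b0).symm)
  -- the centre of `Q`
  let F : Subgroup Q := (MonoidHom.mk' (fun b : Q ⧸ Z => b * b) (fun b c => by
    change b * c * (b * c) = b * b * (c * c)
    rw [mul_assoc, ← mul_assoc c, hcomm c b]; group)).ker.comap π
  have hF : ∀ x, x ∈ F ↔ π x * π x = 1 := fun x => Iff.rfl
  have hFcard : Nat.card F = 8 := by
    have e1 := Subgroup.index_comap_of_surjective (MonoidHom.mk' (fun b : Q ⧸ Z => b * b) (fun b c => by
      change b * c * (b * c) = b * b * (c * c)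
      rw [mul_assoc, ← mul_assoc c, hcomm c b]; group)).ker hπs
    have e2 := Subgroup.card_mul_index (MonoidHom.mk' (fun b : Q ⧸ Z => b * b) (fun b c => by
      change b * c * (b * c) = b * b * (c * c)
      rw [mul_assoc, ← mul_assoc c, hcomm c b]; group)).ker
    rw [hBc] at e2
    have e3 := Subgroup.card_mul_index F
    rw [hQ] at e3
    change F.index = _ at e1
    rw [← e1] at e2
    change Nat.card {b : Q ⧸ Z // b * b = 1} * F.index = 16 at e2
    rw [hcK] at e2
    have e4 : F.index = 4 := by omega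
    rw [e4] at e3
    omega
  have hFC : F ≤ center Q := by
    intro x hx
    rw [Subgroup.mem_center_iff]
    intro w
    exact (hFc x hx w).symm
  have hCc : Nat.card (center Q) ≤ 8 := by
    obtain ⟨x, w, hxw⟩ := hna
    let K := Subgroup.centralizer ({x} : Set Q)
    have hmK : ∀ w, w ∈ K ↔ x * w = w * x := by
      intro w
      rw [Subgroup.mem_centralizer_iff]
      simp
    have e1 : center Q ≤ K := fun c hc => (hmK c).2 (Subgroup.mem_center_iff.1 hc x)
    have e2 : 2 * Nat.card (center Q) ≤ Nat.card K := by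
      refine two_mul_card_le e1 (fun hc => hxw ?_)
      have : x ∈ center Q := by rw [hc]; exact (hmK x).2 rfl
      exact (Subgroup.mem_center_iff.1 this w).symm
    have e3 : 2 * Nat.card K ≤ Nat.card (⊤ : Subgroup Q) := by
      refine two_mul_card_le le_top (fun hc => hxw ?_)
      have : w ∈ K := by rw [hc]; exact Subgroup.mem_top w
      exact (hmK w).1 this
    rw [Subgroup.card_top, hQ] at e3
    omega
  have hCF : F = center Q := Subgroup.eq_of_le_of_card_ge hFC (by omega)
  have hcen : ∀ x : Q, (∀ w : Q, x * w = w * x) ↔ π x * π x = 1 := by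
    intro x
    rw [← hF, hCF, Subgroup.mem_center_iff]
    exact ⟨fun hw w => (hw w).symm, fun hw w => (hw w).symm⟩
  have hQw : ∀ x : Q, (∀ w ∈ Q, (x : D) * w = w * x) ↔ ∀ w : Q, x * w = w * x := by
    intro x
    exact ⟨fun hw w => Subtype.ext (hw w w.2), fun hw w hwQ => congrArg Subtype.val (hw ⟨w, hwQ⟩)⟩
  refine ⟨?_, ?_⟩
  · refine ⟨hQ, h.cent, ?_, ?_, ?_, ?_, ?_, ?_, ?_⟩
    · intro x hx w hw
      rcases hc1 ⟨x, hx⟩ ⟨w, hw⟩ with h4 | h4
      · left; exact congrArg Subtype.val h4
      · right; exact congrArg Subtype.val h4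
    · obtain ⟨x, w, hxw⟩ := hna
      exact ⟨x, x.2, w, w.2, fun hc => hxw (Subtype.ext hc)⟩
    · rw [← hFcard]
      refine Nat.card_congr ?_
      refine
        { toFun := fun x => ⟨⟨x.1, x.2.1⟩, (hF _).2 ((hcen _).1 ((hQw ⟨x.1, x.2.1⟩).1 x.2.2))⟩
          invFun := fun x => ⟨x.1.1, x.1.2, (hQw x.1).2 ((hcen _).2 ((hF _).1 x.2))⟩
          left_inv := fun x => rfl
          right_inv := fun x => rfl }
    · intro x hx hxw
      have h4 := (hcen ⟨x, hx⟩).1 ((hQw ⟨x, hx⟩).1 hxw)
      obtain ⟨c, hc⟩ := (hsq _).1 h4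
      obtain ⟨v, rfl⟩ := hπs c
      rw [← map_mul] at hc
      refine ⟨v, v.2, ?_⟩
      rcases hπ _ _ hc with h5 | h5
      · left; exact congrArg Subtype.val h5
      · right
        have h6 : x = z * (v * v) := congrArg Subtype.val h5
        rw [h6, hzc]
    · intro x hx hxw
      have h4 := (hcen ⟨x, hx⟩).1 ((hQw ⟨x, hx⟩).1 hxw)
      obtain ⟨X, hX⟩ : ∃ X : Q, X = ⟨x, hx⟩ := ⟨_, rfl⟩
      rw [← hX] at h4
      have h5 : X * X = 1 := by
        rcases (hπ1 (X * X)).1 (by rw [map_mul]; exact h4) with h6 | h6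
        · exact h6
        · exfalso
          have c1 := hFc X h4
          have h7 : π (A X) * π (A X) = 1 := by rw [← hf, ← map_mul, h4, map_one]
          have c2 := hFc (A X) h7
          have h8 : A X * A X = z' := by rw [← map_mul, h6, hAz]
          have h9 : A (A X) * A (A X) = z' := by rw [← map_mul, h8, hAz]
          have h10 : (X * A X * A (A X)) * (X * A X * A (A X)) = z' := by
            calc (X * A X * A (A X)) * (X * A X * A (A X)) = X * (A X * (A (A X) * (X * (A X * A (A X))))) := by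
                  simp only [mul_assoc]
              _ = X * (A X * (X * ((A X * A (A X)) * A (A X)))) := by
                  rw [← mul_assoc (A (A X)) X, ← c1 (A (A X)), mul_assoc X (A (A X)), ← mul_assoc (A (A X)) (A X),
                    ← c2 (A (A X))]
              _ = (X * X) * (A X * A X) * (A (A X) * A (A X)) := by
                  rw [← mul_assoc (A X) X, ← c1 (A X)]; simp only [mul_assoc]
              _ = z' := by rw [h6, h8, h9, hz'z', one_mul]
          have h11 : π (X * A X * A (A X)) = 1 := by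
            rw [map_mul, map_mul]
            exact hn1 (π X)
          rcases (hπ1 _).1 h11 with h12 | h12
          · rw [h12, one_mul] at h10; exact hz'1 h10.symm
          · rw [h12, hz'z'] at h10; exact hz'1 h10.symm
      rw [hX] at h5
      exact congrArg Subtype.val h5
    · intro x hx hxw hxx
      apply hxw
      refine (hQw ⟨x, hx⟩).2 ((hcen _).2 ?_)
      rw [← map_mul, show (⟨x, hx⟩ : Q) * ⟨x, hx⟩ = 1 from Subtype.ext hxx, map_one]
    · refine ⟨x0 * x0, Q.mul_mem x0.2 x0.2, ?_, ?_⟩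
      · exact (hQw (x0 * x0)).2 (hsqc x0)
      · intro hc
        apply hb0
        rw [← hx0, ← map_mul, hg]
        congr 1
        refine Subtype.ext ?_
        change y * ((x0 : D) * x0) * y⁻¹ = (x0 : D) * x0
        rw [Subgroup.mem_center_iff.1 hc y, mul_inv_cancel_right]
  · refine ⟨(x0 * x0 * σ (x0 * x0) : Q), ?_, ?_, ?_⟩
    · refine hD _ ?_ ?_
      · refine (hQw _).2 fun w => ?_
        rw [map_mul σ]
        rw [mul_assoc, hsqc (σ x0) w, ← mul_assoc, hsqc x0 w, mul_assoc]
      · have e0 : ((x0 * x0 : Q) : D) * (y * y) = (y * y) * ((x0 * x0 : Q) : D) :=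
          congrArg Subtype.val (hsqc x0 ⟨y * y, h.yy⟩)
        have e1 : ((x0 * x0 : Q) : D) * (σ (x0 * x0) : D) = (σ (x0 * x0) : D) * ((x0 * x0 : Q) : D) :=
          congrArg Subtype.val (hsqc x0 (σ (x0 * x0)))
        change ((x0 * x0 : Q) : D) * (σ (x0 * x0) : D) * y = y * (((x0 * x0 : Q) : D) * (σ (x0 * x0) : D))
        have e2 : (σ (x0 * x0) : D) = y * ((x0 * x0 : Q) : D) * y⁻¹ := rfl
        rw [e2] at e1 ⊢
        generalize ((x0 * x0 : Q) : D) = S at e0 e1
        calc S * (y * S * y⁻¹) * y = S * y * S := by group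
          _ = (S * (y * y)) * y⁻¹ * S := by group
          _ = y * ((y * S * y⁻¹) * S) := by rw [e0]; group
          _ = y * (S * (y * S * y⁻¹)) := by rw [← e1]
    · intro hc
      apply hb0
      have h4 : π (x0 * x0 * σ (x0 * x0)) = 1 := by
        rw [show (x0 * x0 * σ (x0 * x0) : Q) = 1 from Subtype.ext hc, map_one]
      rw [map_mul, ← hg, map_mul, hx0] at h4
      exact mul_left_cancel (h4.trans (hb4 b0).symm)
    · intro hc
      apply hb0
      have h4 : π (x0 * x0 * σ (x0 * x0)) = 1 := (hπ1 _).2 (Or.inr (Subtype.ext hc))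
      rw [map_mul, ← hg, map_mul, hx0] at h4
      exact mul_left_cancel (h4.trans (hb4 b0).symm)

end Cfsg.Agent.H807.S45
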