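import Cfsg.Agent.H617.Two.Defs

/-!
# S4543 T6 (`|Q| = 16`, `Q` nonabelian)
-/

set_option autoImplicit false
set_option linter.unusedSectionVars false

namespace Cfsg.Agent.H807.S45

open Subgroup Cfsg.Agent.H617.Two

section basics

variable {D : Type*} [Group D]

/-- elements outside of a subgroup of relative index two -/
theorem mul_mem_of_half [Finite D] {K L : Subgroup D} (hle : K ≤ L) (hc : Nat.card L = 2 * Nat.card K) {x w : D}
    (hx : x ∈ L) (hw : w ∈ L) (hxK : x ∉ K) (hwK : w ∉ K) : x * w ∈ K := by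
  have h1 : (K.subgroupOf L).index = 2 := by
    have h2 := Subgroup.card_mul_index (K.subgroupOf L)
    have h3 : Nat.card (K.subgroupOf L) = Nat.card K := Nat.card_congr (Subgroup.subgroupOfEquivOfLe hle).toEquiv
    have h4 : 0 < Nat.card K := Nat.card_pos
    rw [h3, hc] at h2
    nlinarith
  have h5 := (Subgroup.mul_mem_iff_of_index_two h1 (a := ⟨x, hx⟩) (b := ⟨w, hw⟩)).2
    ⟨fun h => absurd h hxK, fun h => absurd h hwK⟩
  exact h5

/-- subgroups of order at most two -/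
theorem eq_of_card_le_two [Finite D] {K : Subgroup D} (hK : Nat.card K ≤ 2) {z : D} (hz : z ∈ K) (hz1 : z ≠ 1)
    {x : D} (hx : x ∈ K) : x = 1 ∨ x = z := by
  by_contra hcon
  push Not at hcon
  have h1 : Function.Injective (![⟨1, K.one_mem⟩, ⟨z, hz⟩, ⟨x, hx⟩] : Fin 3 → K) := by
    intro i j hij
    fin_cases i <;> fin_cases j <;> simp_all [Subtype.ext_iff, eq_comm]
  have h2 := Nat.card_le_card_of_injective _ h1
  simp only [Nat.card_eq_fintype_card, Fintype.card_fin] at h2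
  omega

end basics

section str

variable {D : Type*} [Group D] [Finite D] {Q R : Subgroup D} {y p q : D}

/-- `|Q| = 4 |R|` at least -/
theorem card_le_four (h : Str Q R y p q) : Nat.card Q ≤ 4 * Nat.card R := by
  classical
  have h1 : ∀ x : Q, ∃ ir : Fin 4 × R, (x : D) = (![1, p, q, p * q] : Fin 4 → D) ir.1 * ir.2 := by
    intro x
    obtain ⟨r, hr, hx | hx | hx | hx⟩ := h.cover x x.2
    · exact ⟨(0, ⟨r, hr⟩), by simpa using hx⟩
    · exact ⟨(1, ⟨r, hr⟩), by simpa using hx⟩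
    · exact ⟨(2, ⟨r, hr⟩), by simpa using hx⟩
    · exact ⟨(3, ⟨r, hr⟩), by simpa using hx⟩
  choose f hf using h1
  have h2 : Function.Injective f := fun a b hab => Subtype.ext (by rw [hf a, hf b, hab])
  have h3 := Nat.card_le_card_of_injective _ h2
  rw [Nat.card_prod, Nat.card_eq_fintype_card (α := Fin 4), Fintype.card_fin] at h3
  exact h3

theorem card_R (h : Str Q R y p q) (hQ : Nat.card Q = 16) : Nat.card R = 4 := by
  have h1 := card_le_four h
  rw [hQ] at h1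
  have h2 : Nat.card R ∣ 2 ^ 4 := by
    have := Subgroup.card_dvd_of_le h.RQ
    rw [hQ] at this
    exact this
  obtain ⟨k, hk, hk2⟩ := (Nat.dvd_prime_pow Nat.prime_two).1 h2
  have h3 : Nat.card R ≠ 16 := fun h3 => h.pR (by
    have := Subgroup.eq_of_le_of_card_ge h.RQ (by omega)
    rw [this]; exact h.pQ)
  have h4 : Nat.card R ≠ 8 := fun h4 =>
    h.pqR (mul_mem_of_half h.RQ (by omega) h.pQ h.qQ h.pR h.qR)
  interval_cases k <;> simp_all

/-- `w q w⁻¹` for `w ∈ Q` -/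
theorem conj_q (h : Str Q R y p q) {w : D} (hw : w ∈ Q) : w * q * w⁻¹ = q ∨ w * q * w⁻¹ = p * p * q := by
  have hpq : p * q * p⁻¹ = p * p * q := by
    rw [h.comm]; group
  obtain ⟨r, hr, rfl | rfl | rfl | rfl⟩ := h.cover w hw
  · left; rw [← h.qc _ hr]; group
  · right
    rw [mul_inv_rev, mul_assoc p r q, ← h.qc _ hr, ← hpq]; group
  · left
    rw [mul_inv_rev, mul_assoc q r q, ← h.qc _ hr]; group
  · right
    rw [mul_inv_rev, mul_assoc (p * q) r q, ← h.qc _ hr, ← hpq]; group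

theorem y_s (h : Str Q R y p q) : y * (p * p) * y⁻¹ = p * p := by
  have h1 : y * (p * p) * y⁻¹ = (y * p * y⁻¹) * (y * p * y⁻¹) := by group
  rw [h1, h.yp]
  calc p * p * p * (p * p * p) = (p * p * (p * p)) * (p * p) := by group
    _ = p * p := by rw [h.pppp, one_mul]

/-- `y` normalizes `Q` -/
theorem y_mem (h : Str Q R y p q) {w : D} (hw : w ∈ Q) : y * w * y⁻¹ ∈ Q := by
  have h1 : y * p * y⁻¹ ∈ Q := by
    rw [h.yp]; exact Q.mul_mem (Q.mul_mem h.pQ h.pQ) h.pQ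
  have h2 : y * q * y⁻¹ ∈ Q := by
    rw [h.yq]; exact Q.mul_mem h.pQ h.qQ
  obtain ⟨r, hr, rfl | rfl | rfl | rfl⟩ := h.cover w hw
  · exact h.RQ (h.yR _ hr)
  · have : y * (p * r) * y⁻¹ = (y * p * y⁻¹) * (y * r * y⁻¹) := by group
    rw [this]; exact Q.mul_mem h1 (h.RQ (h.yR _ hr))
  · have : y * (q * r) * y⁻¹ = (y * q * y⁻¹) * (y * r * y⁻¹) := by group
    rw [this]; exact Q.mul_mem h2 (h.RQ (h.yR _ hr))
  · have : y * (p * q * r) * y⁻¹ = (y * p * y⁻¹) * (y * q * y⁻¹) * (y * r * y⁻¹) := by group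
    rw [this]; exact Q.mul_mem (Q.mul_mem h1 h2) (h.RQ (h.yR _ hr))

theorem y_norm (h : Str Q R y p q) : y ∈ normalizer (Q : Set D) := by
  have h1 : Q.map (MulAut.conj y).toMonoidHom = Q := by
    refine Subgroup.eq_of_le_of_card_ge ?_ ?_
    · rintro _ ⟨w, hw, rfl⟩
      exact y_mem h hw
    · rw [Nat.card_congr (Q.equivMapOfInjective _ (MulAut.conj y).injective).toEquiv.symm]
  rw [Subgroup.mem_normalizer_iff]
  intro w
  refine ⟨fun hw => y_mem h hw, fun hw => ?_⟩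
  rw [← h1] at hw
  obtain ⟨v, hv, hv2⟩ := hw
  have h2 : y * v * y⁻¹ = y * w * y⁻¹ := hv2
  have h3 : v = w := by
    have := congrArg (fun t => y⁻¹ * t * y) h2
    simpa [mul_assoc] using this
  rwa [← h3]

end str

section six

variable {D : Type*} [Group D] [Finite D] {Q R : Subgroup D} {y p q : D}

/-- the setup: everything about `g ∉ N_D(Q)` -/
structure Out (Q : Subgroup D) (g : D) : Prop where
  nN : g ∉ normalizer (Q : Set D)
  norm : ∀ n ∈ normalizer (Q : Set D), g⁻¹ * n * g ∈ normalizer (Q : Set D)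
  norm' : ∀ n ∈ normalizer (Q : Set D), g * n * g⁻¹ ∈ normalizer (Q : Set D)
  sq : g * g ∈ normalizer (Q : Set D)
  mulQ : ∀ x ∈ normalizer (Q : Set D), ∀ w ∈ normalizer (Q : Set D), x ∉ Q → w ∉ Q → x * w ∈ Q

theorem Out.of (hD : Nat.card D = 64) (hQ : Nat.card Q = 16) (hN : Nat.card (normalizer (Q : Set D)) = 32)
    {g : D} (hg : g ∉ normalizer (Q : Set D)) : Out Q g := by
  have h1 : (normalizer (Q : Set D)).index = 2 := by
    have := Subgroup.card_mul_index (normalizer (Q : Set D))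
    rw [hN, hD] at this
    omega
  have h2 := Subgroup.normal_of_index_eq_two h1
  refine ⟨hg, fun n hn => ?_, fun n hn => h2.conj_mem n hn g, ?_, fun x hx w hw hxQ hwQ =>
    mul_mem_of_half Subgroup.le_normalizer (by omega) hx hw hxQ hwQ⟩
  · have := h2.conj_mem n hn g⁻¹
    rwa [inv_inv] at this
  · exact (Subgroup.mul_mem_iff_of_index_two h1).2 Iff.rfl

/-- `g ↦ g⁻¹` -/
theorem Out.inv {g : D} (o : Out Q g) : Out Q g⁻¹ := by
  refine ⟨fun hc => o.nN (by simpa using inv_mem hc), fun n hn => ?_, fun n hn => ?_, ?_, o.mulQ⟩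
  · rw [inv_inv]; exact o.norm' n hn
  · rw [inv_inv]; exact o.norm n hn
  · have := inv_mem o.sq
    rwa [mul_inv_rev] at this

/-- `x ∈ gQg⁻¹ ↔ gxg⁻¹ ∈ Q` -/
theorem Out.iff {g : D} (o : Out Q g) (x : D) : g⁻¹ * x * g ∈ Q ↔ g * x * g⁻¹ ∈ Q := by
  have h1 := Subgroup.mem_normalizer_iff.1 o.sq (g⁻¹ * x * g)
  have h2 : g * g * (g⁻¹ * x * g) * (g * g)⁻¹ = g * x * g⁻¹ := by group
  rw [h2] at h1
  exact h1

/-- the coset `N ∖ Q` -/
theorem conj_out (h : Str Q R y p q) {g : D} (o : Out Q g) {n : D} (hn : n ∈ normalizer (Q : Set D)) (hnQ : n ∉ Q) :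
    n * q * n⁻¹ = p * q ∨ n * q * n⁻¹ = p * p * (p * q) := by
  have hyi : y⁻¹ ∉ Q := fun hc => h.yQ (by simpa using inv_mem hc)
  have hw : y⁻¹ * n ∈ Q := o.mulQ _ (inv_mem (y_norm h)) _ hn hyi hnQ
  have e : n * q * n⁻¹ = y * ((y⁻¹ * n) * q * (y⁻¹ * n)⁻¹) * y⁻¹ := by group
  rcases conj_q h hw with h1 | h1
  · left
    rw [e, h1, h.yq]
  · right
    rw [e, h1]
    calc y * (p * p * q) * y⁻¹ = (y * (p * p) * y⁻¹) * (y * q * y⁻¹) := by group
      _ = _ := by rw [y_s h, h.yq]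

/-- elements of `N ∖ Q` normalize `R` -/
theorem norm_R (h : Str Q R y p q) (hR : Nat.card R = 4) {g : D} (o : Out Q g) {n : D}
    (hn : n ∈ normalizer (Q : Set D)) {r : D} (hr : r ∈ R) : n * r * n⁻¹ ∈ R := by
  have hcomm : ∀ a ∈ R, ∀ b ∈ R, a * b = b * a := by
    haveI : Fact (Nat.Prime 2) := ⟨Nat.prime_two⟩
    have h1 := IsPGroup.isMulCommutative_of_card_eq_prime_sq (p := 2) (G := R) (by rw [hR]; norm_num)
    intro a ha b hb
    exact congrArg Subtype.val (h1.is_comm.comm (⟨a, ha⟩ : R) ⟨b, hb⟩)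
  have hQR : ∀ w ∈ Q, ∀ r ∈ R, w * r = r * w := by
    intro w hw r hr
    obtain ⟨r', hr', rfl | rfl | rfl | rfl⟩ := h.cover w hw
    · exact hcomm _ hr' _ hr
    · rw [mul_assoc, hcomm _ hr' _ hr, ← mul_assoc, h.pc _ hr, mul_assoc]
    · rw [mul_assoc, hcomm _ hr' _ hr, ← mul_assoc, h.qc _ hr, mul_assoc]
    · rw [mul_assoc, hcomm _ hr' _ hr, ← mul_assoc, mul_assoc p q r, h.qc _ hr, ← mul_assoc p r q, h.pc _ hr]
      group
  by_cases hnQ : n ∈ Q
  · rw [hQR n hnQ r hr]; simpa using hr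
  · have hyi : y⁻¹ ∉ Q := fun hc => h.yQ (by simpa using inv_mem hc)
    have hw : y⁻¹ * n ∈ Q := o.mulQ _ (inv_mem (y_norm h)) _ hn hyi hnQ
    have e : n * r * n⁻¹ = y * ((y⁻¹ * n) * r * (y⁻¹ * n)⁻¹) * y⁻¹ := by group
    rw [e, hQR _ hw r hr, mul_assoc r, mul_inv_cancel, mul_one]
    exact h.yR _ hr

theorem conj_closed {R : Subgroup D} {g : D} (hA : ∀ r ∈ R, g * r * g⁻¹ ∈ R) : ∀ r ∈ R, g⁻¹ * r * g ∈ R := by
  have h1 : R.map (MulAut.conj g).toMonoidHom = R := by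
    refine Subgroup.eq_of_le_of_card_ge ?_ ?_
    · rintro _ ⟨w, hw, rfl⟩
      exact hA w hw
    · rw [Nat.card_congr (R.equivMapOfInjective _ (MulAut.conj g).injective).toEquiv.symm]
  intro r hr
  rw [← h1] at hr
  obtain ⟨v, hv, hv2⟩ := hr
  have h2 : g * v * g⁻¹ = r := hv2
  have h3 : v = g⁻¹ * r * g := by rw [← h2]; group
  rwa [← h3]

/-- if `R ≤ gQg⁻¹` then `p ∈ gQg⁻¹` and `q ∉ gQg⁻¹` -/
theorem inter (h : Str Q R y p q) {g : D} (o : Out Q g) (hR1 : ∀ r ∈ R, g⁻¹ * r * g ∈ Q) :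
    g⁻¹ * q * g ∉ Q ∧ g⁻¹ * (p * q) * g ∉ Q ∧ g⁻¹ * p * g ∈ Q := by
  have hyN := y_norm h
  have hy : ∀ x, g⁻¹ * x * g ∈ Q ↔ g⁻¹ * (y * x * y⁻¹) * g ∈ Q := by
    intro x
    have h1 := Subgroup.mem_normalizer_iff.1 (o.norm y hyN) (g⁻¹ * x * g)
    have h2 : g⁻¹ * y * g * (g⁻¹ * x * g) * (g⁻¹ * y * g)⁻¹ = g⁻¹ * (y * x * y⁻¹) * g := by group
    rwa [h2] at h1
  have hmul : ∀ a b, g⁻¹ * (a * b) * g = (g⁻¹ * a * g) * (g⁻¹ * b * g) := fun a b => by group
  have h1 : g⁻¹ * q * g ∉ Q := by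
    intro hq
    have h2 : g⁻¹ * (p * q) * g ∈ Q := by
      rw [← h.yq]; exact (hy q).1 hq
    have h3 : g⁻¹ * p * g ∈ Q := by
      have : g⁻¹ * p * g = (g⁻¹ * (p * q) * g) * (g⁻¹ * q * g)⁻¹ := by group
      rw [this]; exact Q.mul_mem h2 (Q.inv_mem hq)
    have h4 : ∀ w ∈ Q, g⁻¹ * w * g ∈ Q := by
      intro w hw
      obtain ⟨r, hr, rfl | rfl | rfl | rfl⟩ := h.cover w hw
      · exact hR1 _ hr
      · rw [hmul]; exact Q.mul_mem h3 (hR1 _ hr)
      · rw [hmul]; exact Q.mul_mem hq (hR1 _ hr)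
      · rw [hmul]; exact Q.mul_mem h2 (hR1 _ hr)
    have h5 := conj_closed (R := Q) (g := g⁻¹) (fun r hr => by rw [inv_inv]; exact h4 r hr)
    apply o.nN
    rw [Subgroup.mem_normalizer_iff]
    intro w
    refine ⟨fun hw => ?_, fun hw => ?_⟩
    · simpa using h5 w hw
    · have := h4 _ hw
      simpa [mul_assoc] using this
  have h2 : g⁻¹ * (p * q) * g ∉ Q := by
    rw [← h.yq, ← hy q]
    exact h1
  refine ⟨h1, h2, ?_⟩
  have : g⁻¹ * p * g = (g⁻¹ * (p * q) * g) * (g⁻¹ * q⁻¹ * g) := by group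
  rw [this]
  have hQN : ∀ w ∈ Q, g⁻¹ * w * g ∈ normalizer (Q : Set D) := fun w hw => o.norm w (Subgroup.le_normalizer hw)
  refine o.mulQ _ (hQN _ (Q.mul_mem h.pQ h.qQ)) _ (hQN _ (Q.inv_mem h.qQ)) h2 ?_
  intro hc
  apply h1
  have := Q.inv_mem hc
  simpa [mul_assoc] using this

theorem qpq (h : Str Q R y p q) : q * (p * q) = p := by
  have h1 : q * p = p * p * (p * q) := by
    rw [h.comm, ← mul_assoc, h.pppp, one_mul]
  calc q * (p * q) = (q * p) * q := by group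
    _ = p * p * (p * (q * q)) := by rw [h1]; group
    _ = (p * p * (p * p)) * p := by rw [h.qq]; group
    _ = p := by rw [h.pppp, one_mul]

/-- the square of `u = q (g q g⁻¹)` -/
theorem u_sq (h : Str Q R y p q) {g : D} (o : Out Q g) (hb : g * q * g⁻¹ ∉ Q) :
    (q * (g * q * g⁻¹)) * (q * (g * q * g⁻¹)) = p * (g * (p * p) * g⁻¹) ∨
      (q * (g * q * g⁻¹)) * (q * (g * q * g⁻¹)) = p * (p * p * (g * (p * p) * g⁻¹)) := by
  have hbN : g * q * g⁻¹ ∈ normalizer (Q : Set D) := o.norm' q (Subgroup.le_normalizer h.qQ)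
  have hbb : (g * q * g⁻¹) * (g * q * g⁻¹) = g * (p * p) * g⁻¹ := by
    rw [← h.qq]; group
  have e : (q * (g * q * g⁻¹)) * (q * (g * q * g⁻¹)) =
      q * ((g * q * g⁻¹) * q * (g * q * g⁻¹)⁻¹) * ((g * q * g⁻¹) * (g * q * g⁻¹)) := by group
  rw [e, hbb]
  rcases conj_out h o hbN hb with h1 | h1
  · left
    rw [h1, qpq h]
  · right
    rw [h1]
    calc q * (p * p * (p * q)) * (g * (p * p) * g⁻¹) = (q * (p * p)) * (p * q) * (g * (p * p) * g⁻¹) := by group
      _ = (p * p) * (q * (p * q)) * (g * (p * p) * g⁻¹) := by rw [h.qc _ h.pp]; group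
      _ = _ := by rw [qpq h]; group

/-- the final contradiction in case (A) -/
theorem pow_eight {x u i s : D} (hx : x * x = u * i) (hc : u * i = i * u) (hu : u ^ 4 = s) (hi : i ^ 4 = 1) :
    x ^ 8 = s := by
  have h1 : x ^ 8 = (x * x) ^ 4 := by
    rw [← pow_two, ← pow_mul]
  rw [h1, hx, (show Commute u i from hc).mul_pow, hu, hi, mul_one]

/-- case (A): `g` normalizes `R` -/
theorem case_A (h : Str Q R y p q) (hR : Nat.card R = 4) (hs : p * p ≠ 1) (hexp : ∀ x : D, x ^ 8 = 1) {g : D}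
    (o : Out Q g) (hA : ∀ r ∈ R, g * r * g⁻¹ ∈ R) : False := by
  have hA' := conj_closed hA
  obtain ⟨i1, i2, i3⟩ := inter h o (fun r hr => h.RQ (hA' r hr))
  have hb : g * q * g⁻¹ ∉ Q := fun hc => i1 ((o.iff q).2 hc)
  have hcomm : ∀ a ∈ R, ∀ b ∈ R, a * b = b * a := by
    haveI : Fact (Nat.Prime 2) := ⟨Nat.prime_two⟩
    have h1 := IsPGroup.isMulCommutative_of_card_eq_prime_sq (p := 2) (G := R) (by rw [hR]; norm_num)
    intro a ha b hb
    exact congrArg Subtype.val (h1.is_comm.comm (⟨a, ha⟩ : R) ⟨b, hb⟩)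
  have hr4 : ∀ r ∈ R, r ^ 4 = 1 := by
    intro r hr
    have := pow_card_eq_one' (x := (⟨r, hr⟩ : R))
    rw [hR] at this
    exact congrArg Subtype.val this
  set u := q * (g * q * g⁻¹) with hu
  set s1 := g * (p * p) * g⁻¹ with hs1
  have hs1R : s1 ∈ R := hA _ h.pp
  have hs1s : s1 * s1 = 1 := by
    have : s1 * s1 = g * (p * p * (p * p)) * g⁻¹ := by rw [hs1]; group
    rw [this, h.pppp]; group
  obtain ⟨t, htR, htt, hut⟩ : ∃ t ∈ R, t * t = 1 ∧ u * u = p * t := by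
    rcases u_sq h o hb with h1 | h1
    · exact ⟨s1, hs1R, hs1s, h1⟩
    · refine ⟨p * p * s1, R.mul_mem h.pp hs1R, ?_, h1⟩
      calc p * p * s1 * (p * p * s1) = p * p * (s1 * (p * p)) * s1 := by group
        _ = (p * p * (p * p)) * (s1 * s1) := by rw [hcomm _ hs1R _ h.pp]; group
        _ = 1 := by rw [h.pppp, hs1s, one_mul]
  have huR : ∀ r ∈ R, u * r = r * u := by
    intro r hr
    have h1 : (g * q * g⁻¹) * r = r * (g * q * g⁻¹) := by
      have h2 := h.qc _ (hA' r hr)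
      calc (g * q * g⁻¹) * r = g * (q * (g⁻¹ * r * g)) * g⁻¹ := by group
        _ = r * (g * q * g⁻¹) := by rw [h2]; group
    rw [hu, mul_assoc, h1, ← mul_assoc, h.qc _ hr, mul_assoc]
  have hup : u * p = p * u := by
    have h1 : p = u * u * t := by rw [hut, mul_assoc, htt, mul_one]
    have h2 : u * (u * u * t) = (u * u * t) * u := by
      rw [mul_assoc (u * u) t u, ← huR t htR]; group
    rw [← h1] at h2
    exact h2
  have hu4 : u ^ 4 = p * p := by
    have h1 : u ^ 4 = (u * u) * (u * u) := by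
      rw [← pow_two, ← pow_two, ← pow_mul]
    rw [h1, hut]
    calc p * t * (p * t) = p * (t * p) * t := by group
      _ = p * p * (t * t) := by rw [← h.pc _ htR]; group
      _ = p * p := by rw [htt, mul_one]
  -- the intersection
  have hI : ∀ i ∈ Q, g⁻¹ * i * g ∈ Q → u * i = i * u ∧ i ^ 4 = 1 := by
    intro i hi hi'
    obtain ⟨r, hr, hri⟩ := h.cover i hi
    have hrQ : g⁻¹ * r * g ∈ Q := h.RQ (hA' r hr)
    rcases hri with rfl | rfl | rfl | rfl
    · exact ⟨huR _ hr, hr4 _ hr⟩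
    · refine ⟨by rw [← mul_assoc, hup, mul_assoc, huR _ hr, mul_assoc], ?_⟩
      rw [(show Commute p r from h.pc _ hr).mul_pow, hr4 _ hr, mul_one]
      rw [show p ^ 4 = p * p * (p * p) by rw [← pow_two, ← pow_two, ← pow_mul]]
      exact h.pppp
    · exfalso
      apply i1
      have : g⁻¹ * q * g = (g⁻¹ * (q * r) * g) * (g⁻¹ * r * g)⁻¹ := by group
      rw [this]; exact Q.mul_mem hi' (Q.inv_mem hrQ)
    · exfalso
      apply i2
      have : g⁻¹ * (p * q) * g = (g⁻¹ * (p * q * r) * g) * (g⁻¹ * r * g)⁻¹ := by group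
      rw [this]; exact Q.mul_mem hi' (Q.inv_mem hrQ)
  have huQ : u ∉ Q := fun hc => hb (by
    have := Q.mul_mem (Q.inv_mem h.qQ) hc
    rwa [hu, inv_mul_cancel_left] at this)
  have huQ1 : g⁻¹ * u * g ∉ Q := by
    intro hc
    apply i1
    have : g⁻¹ * q * g = (g⁻¹ * u * g) * q⁻¹ := by rw [hu]; group
    rw [this]; exact Q.mul_mem hc (Q.inv_mem h.qQ)
  have huN : u ∈ normalizer (Q : Set D) :=
    mul_mem (Subgroup.le_normalizer h.qQ) (o.norm' q (Subgroup.le_normalizer h.qQ))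
  have hgg : g⁻¹ * (g * g) * g = g * g := by group
  by_cases hg2 : g * g ∈ Q
  · obtain ⟨c1, c2⟩ := hI (g * g) hg2 (by rw [hgg]; exact hg2)
    have hx : (q * g) * (q * g) = u * (g * g) := by rw [hu]; group
    exact hs ((pow_eight hx c1 hu4 c2).symm.trans (hexp _))
  · have hui : u⁻¹ ∉ Q := fun hc => huQ (by simpa using Q.inv_mem hc)
    have h1 : u⁻¹ * (g * g) ∈ Q := o.mulQ _ (inv_mem huN) _ o.sq hui hg2
    have h2 : g⁻¹ * (u⁻¹ * (g * g)) * g ∈ Q := by
      have e : g⁻¹ * (u⁻¹ * (g * g)) * g = (g⁻¹ * u⁻¹ * g) * (g * g) := by group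
      rw [e]
      refine o.mulQ _ (o.norm _ (inv_mem huN)) _ o.sq (fun hc => huQ1 ?_) hg2
      have := Q.inv_mem hc
      simpa [mul_assoc] using this
    obtain ⟨c1, c2⟩ := hI _ h1 h2
    have hx : g * g = u * (u⁻¹ * (g * g)) := by group
    exact hs ((pow_eight hx c1 hu4 c2).symm.trans (hexp _))

theorem proper_card {K R : Subgroup D} (hle : K ≤ R) (hR : Nat.card R = 4) {r : D} (hr : r ∈ R) (hrK : r ∉ K) :
    Nat.card K ≤ 2 := by
  have h1 : Nat.card K ∣ 2 ^ 2 := by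
    have := Subgroup.card_dvd_of_le hle
    rw [hR] at this
    exact this
  obtain ⟨k, hk, hk2⟩ := (Nat.dvd_prime_pow Nat.prime_two).1 h1
  have h2 : Nat.card K ≠ 4 := fun h2 => hrK (by
    have := Subgroup.eq_of_le_of_card_ge hle (by omega)
    rw [this]; exact hr)
  interval_cases k <;> simp_all

theorem z_mem_R (h : Str Q R y p q) (hs : p * p ≠ 1) {z : D} (hz : z ∈ center D) (hzQ : z ∈ Q) : z ∈ R := by
  have hpq : p * q ≠ q * p := by
    intro hc
    apply hs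
    have := h.comm
    rw [hc] at this
    exact (mul_eq_right.1 this.symm)
  have hzz := Subgroup.mem_center_iff.1 hz
  obtain ⟨r, hr, rfl | rfl | rfl | rfl⟩ := h.cover z hzQ
  · exact hr
  · exfalso
    apply hpq
    have h1 := hzz q
    rw [mul_assoc p r q, ← h.qc _ hr, ← mul_assoc, ← mul_assoc] at h1
    exact (mul_right_cancel h1).symm
  · exfalso
    apply hpq
    have h1 := hzz p
    rw [mul_assoc q r p, ← h.pc _ hr, ← mul_assoc, ← mul_assoc] at h1
    exact mul_right_cancel h1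
  · exfalso
    apply hpq
    have h1 := hzz p
    have h2 : (p * (p * q)) * r = (p * (q * p)) * r := by
      calc (p * (p * q)) * r = p * (p * q * r) := by group
        _ = (p * q) * (r * p) := by rw [h1]; group
        _ = (p * (q * p)) * r := by rw [← h.pc _ hr]; group
    exact mul_left_cancel (mul_right_cancel h2)

/-- `gRg⁻¹ ≤ Q` -/
theorem sub_Q (h : Str Q R y p q) (hR : Nat.card R = 4) {z : D} (hz : z ∈ center D) (hz1 : z ≠ 1) (hzR : z ∈ R)
    {g : D} (o : Out Q g) : ∀ r ∈ R, g * r * g⁻¹ ∈ Q := by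
  intro r hr
  by_contra hcon
  let K : Subgroup D := R ⊓ Q.comap (MulAut.conj g).toMonoidHom
  have hK : ∀ x, x ∈ K ↔ x ∈ R ∧ g * x * g⁻¹ ∈ Q := fun x => Iff.rfl
  have hKc : Nat.card K ≤ 2 := proper_card (K := K) (R := R) inf_le_left hR hr (fun hc => hcon ((hK r).1 hc).2)
  have hzg : g * z * g⁻¹ = z := by
    rw [Subgroup.mem_center_iff.1 hz g]; group
  have hzK : z ∈ K := (hK z).2 ⟨hzR, by rw [hzg]; exact h.RQ hzR⟩
  have hrN : g * r * g⁻¹ ∈ normalizer (Q : Set D) := o.norm' r (Subgroup.le_normalizer (h.RQ hr))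
  have h1 := conj_out h o hrN hcon
  set c := (g * r * g⁻¹) * q * (g * r * g⁻¹)⁻¹ * q⁻¹ with hc
  have hc2 : c = p ∨ c = p * p * p := by
    rcases h1 with h1 | h1
    · left; rw [hc, h1]; group
    · right; rw [hc, h1]; group
  have hcK : g⁻¹ * c * g ∈ K := by
    refine (hK _).2 ⟨?_, ?_⟩
    · have e : g⁻¹ * c * g = r * ((g⁻¹ * q * g) * r⁻¹ * (g⁻¹ * q * g)⁻¹) := by rw [hc]; group
      rw [e]
      exact R.mul_mem hr (norm_R h hR o (o.norm q (Subgroup.le_normalizer h.qQ)) (R.inv_mem hr))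
    · have e : g * (g⁻¹ * c * g) * g⁻¹ = c := by group
      rw [e]
      rcases hc2 with h2 | h2
      · rw [h2]; exact h.pQ
      · rw [h2]; exact Q.mul_mem (Q.mul_mem h.pQ h.pQ) h.pQ
  have hcR : c ∈ R := by
    have e : c = g * (g⁻¹ * c * g) * g⁻¹ := by group
    rcases eq_of_card_le_two hKc hzK hz1 hcK with h2 | h2
    · rw [e, h2]; simp
    · rw [e, h2, hzg]; exact hzR
  apply h.pR
  rcases hc2 with h2 | h2
  · rwa [← h2]
  · have := R.mul_mem (R.inv_mem h.pp) hcR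
    rw [h2] at this
    have e : (p * p)⁻¹ * (p * p * p) = p := by group
    rwa [e] at this

/-- case (B): `g` does not normalize `R` -/
theorem case_B (h : Str Q R y p q) (hR : Nat.card R = 4) (hs : p * p ≠ 1) {z : D} (hz : z ∈ center D) (hz1 : z ≠ 1)
    (hzz : z * z = 1) (hzQ : z ∈ Q) {g : D} (o : Out Q g) (hB : ¬ ∀ r ∈ R, g * r * g⁻¹ ∈ R) : False := by
  have hzR := z_mem_R h hs hz hzQ
  have hzc := Subgroup.mem_center_iff.1 hz
  have hzg : ∀ g : D, g * z * g⁻¹ = z := fun g => by rw [hzc g]; group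
  have hpq : p * q ≠ q * p := by
    intro hc
    apply hs
    have := h.comm
    rw [hc] at this
    exact (mul_eq_right.1 this.symm)
  have hcomm : ∀ a ∈ R, ∀ b ∈ R, a * b = b * a := by
    haveI : Fact (Nat.Prime 2) := ⟨Nat.prime_two⟩
    have h1 := IsPGroup.isMulCommutative_of_card_eq_prime_sq (p := 2) (G := R) (by rw [hR]; norm_num)
    intro a ha b hb
    exact congrArg Subtype.val (h1.is_comm.comm (⟨a, ha⟩ : R) ⟨b, hb⟩)
  have hB' : ¬ ∀ r ∈ R, g⁻¹ * r * g ∈ R := by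
    intro hc
    apply hB
    have := conj_closed (R := R) (g := g⁻¹) (fun r hr => by rw [inv_inv]; exact hc r hr)
    intro r hr
    simpa using this r hr
  have hQ1 : ∀ r ∈ R, g * r * g⁻¹ ∈ Q := sub_Q h hR hz hz1 hzR o
  have hQ2 : ∀ r ∈ R, g⁻¹ * r * g ∈ Q := by
    intro r hr
    simpa using sub_Q h hR hz hz1 hzR o.inv r hr
  obtain ⟨i1, i2, i3⟩ := inter h o hQ2
  have hb : g * q * g⁻¹ ∉ Q := fun hc => i1 ((o.iff q).2 hc)
  -- `R ∩ R₁ = {1, z}`
  push Not at hB hB'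
  obtain ⟨ρ, hρ, hρR⟩ := hB
  obtain ⟨r1, hr1, hr1R⟩ := hB'
  have hint : ∀ x ∈ R, g⁻¹ * x * g ∈ R → x = 1 ∨ x = z := by
    intro x hx hx'
    let K : Subgroup D := R ⊓ R.comap (MulAut.conj g⁻¹).toMonoidHom
    have hK : ∀ x, x ∈ K ↔ x ∈ R ∧ g⁻¹ * x * g ∈ R := fun x => by
      change x ∈ R ∧ g⁻¹ * x * g⁻¹⁻¹ ∈ R ↔ _
      rw [inv_inv]
    have hKc : Nat.card K ≤ 2 := proper_card (K := K) (R := R) inf_le_left hR hr1 (fun hc => hr1R ((hK r1).1 hc).2)
    refine eq_of_card_le_two hKc ((hK z).2 ⟨hzR, ?_⟩) hz1 ((hK x).2 ⟨hx, hx'⟩)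
    have := hzg g⁻¹
    rw [inv_inv] at this
    rw [this]; exact hzR
  -- elements of `Q ∩ Q₁` outside `R`
  have hI : ∀ i ∈ Q, g⁻¹ * i * g ∈ Q → i ∉ R → ∃ r ∈ R, i = p * r := by
    intro i hi hi' hiR
    obtain ⟨r, hr, hri⟩ := h.cover i hi
    have hrQ : g⁻¹ * r * g ∈ Q := hQ2 r hr
    rcases hri with rfl | rfl | rfl | rfl
    · exact absurd hr hiR
    · exact ⟨r, hr, rfl⟩
    · exfalso
      apply i1
      have : g⁻¹ * q * g = (g⁻¹ * (q * r) * g) * (g⁻¹ * r * g)⁻¹ := by group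
      rw [this]; exact Q.mul_mem hi' (Q.inv_mem hrQ)
    · exfalso
      apply i2
      have : g⁻¹ * (p * q) * g = (g⁻¹ * (p * q * r) * g) * (g⁻¹ * r * g)⁻¹ := by group
      rw [this]; exact Q.mul_mem hi' (Q.inv_mem hrQ)
  have hs1R' : g⁻¹ * (g * (p * p) * g⁻¹) * g ∈ R := by
    have : g⁻¹ * (g * (p * p) * g⁻¹) * g = p * p := by group
    rw [this]; exact h.pp
  -- `s₁ = z`
  have hs1 : g * (p * p) * g⁻¹ = z := by
    obtain ⟨r'', hr'', e1⟩ := hI (g⁻¹ * r1 * g) (hQ2 r1 hr1) (by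
      rw [o.iff]
      have : g * (g⁻¹ * r1 * g) * g⁻¹ = r1 := by group
      rw [this]; exact h.RQ hr1) hr1R
    have e2 : (g⁻¹ * r1 * g) * q = (p * p) * (q * (g⁻¹ * r1 * g)) := by
      rw [e1, mul_assoc p r'' q, ← h.qc _ hr'', ← mul_assoc p q r'', h.comm]; group
    have e3 : g * (p * p) * g⁻¹ = r1 * ((g * q * g⁻¹) * r1⁻¹ * (g * q * g⁻¹)⁻¹) := by
      have : p * p = ((g⁻¹ * r1 * g) * q) * (q * (g⁻¹ * r1 * g))⁻¹ := by rw [e2]; group
      rw [this]; group
    have h1 : g * (p * p) * g⁻¹ ∈ R := by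
      rw [e3]
      exact R.mul_mem hr1 (norm_R h hR o (o.norm' q (Subgroup.le_normalizer h.qQ)) (R.inv_mem hr1))
    rcases hint _ h1 hs1R' with h2 | h2
    · exfalso
      apply hs
      have := congrArg (fun t => g⁻¹ * t * g) h2
      simpa [mul_assoc] using this
    · exact h2
  have hsz : p * p = z := by
    have := congrArg (fun t => g⁻¹ * t * g) hs1
    have e : g⁻¹ * z * g = z := by
      have := hzg g⁻¹
      rwa [inv_inv] at this
    simpa [mul_assoc, e] using this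
  -- `p ∉ R₁`
  have hp1 : g⁻¹ * p * g ∉ R := by
    intro hc
    have huu : ∃ c : D, (c = 1 ∨ c = z) ∧ (q * (g * q * g⁻¹)) * (q * (g * q * g⁻¹)) = p * c := by
      rcases u_sq h o hb with h1 | h1
      · exact ⟨z, Or.inr rfl, by rw [h1, hs1]⟩
      · refine ⟨1, Or.inl rfl, ?_⟩
        rw [h1, hs1, hsz, hzz]
    obtain ⟨c, hc1, huu⟩ := huu
    have hcc : ∀ x : D, x * c = c * x := by
      rcases hc1 with rfl | rfl
      · intro x; rw [mul_one, one_mul]
      · exact hzc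
    have hpb : p * (g * q * g⁻¹) = (g * q * g⁻¹) * p := by
      have h1 := h.qc _ hc
      calc p * (g * q * g⁻¹) = g * ((g⁻¹ * p * g) * q) * g⁻¹ := by group
        _ = g * (q * (g⁻¹ * p * g)) * g⁻¹ := by rw [h1]
        _ = (g * q * g⁻¹) * p := by group
    have hpu : (q * (g * q * g⁻¹)) * p = p * (q * (g * q * g⁻¹)) := by
      have h1 : (q * (g * q * g⁻¹)) * (p * c) = (p * c) * (q * (g * q * g⁻¹)) := by
        rw [← huu]; group
      rw [← mul_assoc, mul_assoc p c, ← hcc (q * (g * q * g⁻¹)), ← mul_assoc p] at h1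
      exact mul_right_cancel h1
    apply hpq
    have h2 : (p * q) * (g * q * g⁻¹) = (q * p) * (g * q * g⁻¹) := by
      calc (p * q) * (g * q * g⁻¹) = p * (q * (g * q * g⁻¹)) := by group
        _ = q * ((g * q * g⁻¹) * p) := by rw [← hpu]; group
        _ = (q * p) * (g * q * g⁻¹) := by rw [← hpb]; group
    exact mul_right_cancel h2
  -- the end
  obtain ⟨r0, hr0, e0⟩ := hI (g * ρ * g⁻¹) (hQ1 ρ hρ) (by
    have : g⁻¹ * (g * ρ * g⁻¹) * g = ρ := by group
    rw [this]; exact h.RQ hρ) hρR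
  let K : Subgroup D := zpowers z
  have hK : ∀ x, x ∈ K ↔ x = 1 ∨ x = z := by
    intro x
    constructor
    · intro hx
      obtain ⟨k, hk⟩ := Subgroup.mem_zpowers_iff.1 hx
      rw [← hk]
      have hz2 : z ^ (2 : ℤ) = 1 := by
        rw [show (2 : ℤ) = ((2 : ℕ) : ℤ) from rfl, zpow_natCast, pow_two, hzz]
      rcases Int.even_or_odd' k with ⟨m, rfl | rfl⟩
      · left; rw [zpow_mul, hz2, one_zpow]
      · right; rw [zpow_add, zpow_mul, hz2, one_zpow, one_mul, zpow_one]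
    · intro hx
      rcases hx with hx | hx
      · rw [hx]; exact K.one_mem
      · rw [hx]; exact Subgroup.mem_zpowers z
  have hKR : K ≤ R := by
    intro x hx
    rcases (hK x).1 hx with h3 | h3
    · rw [h3]; exact R.one_mem
    · rw [h3]; exact hzR
  have hKc : Nat.card K = 2 := by
    rw [Nat.card_zpowers]
    exact orderOf_eq_prime (p := 2) (by rw [pow_two, hzz]) hz1
  have hr0K : r0 ∉ K := by
    intro hc
    apply hp1
    have h1 : p = (g * ρ * g⁻¹) * r0⁻¹ := by rw [e0]; group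
    have h2 : g⁻¹ * r0⁻¹ * g = r0⁻¹ := by
      rcases (hK _).1 hc with h3 | h3
      · rw [h3]; simp
      · have := hzg g⁻¹
        rw [inv_inv] at this
        rw [h3]
        have h4 := congrArg (fun t => t⁻¹) this
        simpa [mul_assoc] using h4
    have h3 : g⁻¹ * p * g = ρ * (g⁻¹ * r0⁻¹ * g) := by
      conv_lhs => rw [h1]
      group
    rw [h3, h2]
    exact R.mul_mem hρ (R.inv_mem hr0)
  have hρK : ρ ∉ K := by
    intro hc
    apply hρR
    rcases (hK _).1 hc with h3 | h3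
    · rw [h3]; simp
    · rw [h3, hzg]; exact hzR
  have h5 : r0⁻¹ * ρ ∈ K := mul_mem_of_half hKR (by omega) (R.inv_mem hr0) hρ
    (fun hc => hr0K (by simpa using K.inv_mem hc)) hρK
  have h6 : r0 * r0 ∈ K := mul_mem_of_half hKR (by omega) hr0 hr0 hr0K hr0K
  have h7 : ρ * ρ = r0 * r0 := by
    rcases (hK _).1 h5 with h8 | h8
    · have : ρ = r0 := (inv_mul_eq_one.1 h8).symm
      rw [this]
    · have : ρ = r0 * z := by rw [← h8]; group
      rw [this]
      calc r0 * z * (r0 * z) = r0 * (z * r0) * z := by group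
        _ = r0 * r0 * (z * z) := by rw [← hzc r0]; group
        _ = r0 * r0 := by rw [hzz, mul_one]
  have h8 : g * (ρ * ρ) * g⁻¹ = ρ * ρ := by
    rw [h7]
    rcases (hK _).1 h6 with h9 | h9
    · rw [h9]; group
    · rw [h9, hzg]
  have h9 : (g * ρ * g⁻¹) * (g * ρ * g⁻¹) = z * (r0 * r0) := by
    rw [e0, ← hsz]
    calc p * r0 * (p * r0) = p * (r0 * p) * r0 := by group
      _ = p * p * (r0 * r0) := by rw [← h.pc _ hr0]; group
  have h10 : (g * ρ * g⁻¹) * (g * ρ * g⁻¹) = g * (ρ * ρ) * g⁻¹ := by group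
  rw [h10, h8, h7] at h9
  exact hz1 (mul_eq_right.1 h9.symm)

end six

/-- **S4543 T6**: `|Q| = 16`, `Q` nonabelian. -/
theorem T6 {D : Type*} [Group D] [Finite D] (hG : Good D) {Q R : Subgroup D} {y p q : D}
    (h : Str Q R y p q) (hQ : Nat.card Q = 16) (hN : Nat.card (normalizer (Q : Set D)) = 32)
    (hs : p * p ≠ 1) {z : D} (hz : z ∈ center D) (hz1 : z ≠ 1) (hzQ : z ∈ Q) : False := by
  have hR := card_R h hQ
  obtain ⟨g, hg⟩ : ∃ g : D, g ∉ normalizer (Q : Set D) := by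
    by_contra hcon
    push Not at hcon
    have h1 : normalizer (Q : Set D) = ⊤ := eq_top_iff.2 fun x _ => hcon x
    rw [h1, Subgroup.card_top, hG.card] at hN
    omega
  have o := Out.of hG.card hQ hN hg
  by_cases hA : ∀ r ∈ R, g * r * g⁻¹ ∈ R
  · exact case_A h hR hs hG.exp o hA
  · exact case_B h hR hs hz hz1 (hG.centre z hz) hzQ o hA

end Cfsg.Agent.H807.S45
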